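import Cfsg.Agent.Lib.TC.D.SuzH.Iso
import Cfsg.Agent.Lib.TC.Perf
import Cfsg.Agent.Lib.PrimeGraph.G24Field
import Cfsg.Agent.Lib.Lie.AxOf
import Cfsg.Agent.Lib.ChevX.Reach
import Cfsg.Agent.S1059

/-! The presented group on the letters `a, …, f` of the Suzuki group and `G₂(4)`. -/

namespace Cfsg.Agent.Lib.TC.D.SuzH.Tgt

open Cfsg.Agent.Lib.TC.Core Cfsg.Agent.Lib.TC.Pres Cfsg.Agent.Lib.TC.Main Cfsg.Agent.Lib.TC.Chain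
  Cfsg.Agent.Lib.TC.Iso Cfsg.Agent.Lib.TC.D.SuzH.Ok Cfsg.Agent.Lib.TC.D.SuzChain.S1_Tab
  Cfsg.Agent.Lib.PrimeGraph.G24Field Cfsg.Lie Cfsg.Agent.Lib.Chev.AxBasic
open scoped Matrix MatrixGroups
open K4

set_option maxRecDepth 100000

/-- The coordinates. -/
abbrev ι := chevG2.Idx

/-- The number of a coordinate. -/
def idx : ι → Nat
  | .inl i => i.val
  | .inr i => 2 + i.val

/-- The matrices of the letters. -/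
def tbl : List (List (List K4)) :=
  [[[e,o,o,o,o,o,o,o,o,o,o,o,o,o],[o,e,o,o,o,o,o,e,o,o,o,o,o,o],[o,o,e,o,o,o,o,o,o,o,o,o,o,o],[o,o,e,e,o,o,o,o,o,o,o,o,o,o],[o,o,o,o,e,o,o,o,o,o,o,o,o,o],[o,o,o,o,o,e,o,o,o,o,o,o,o,o],[o,o,o,o,o,e,e,o,o,o,o,o,o,o],[o,o,o,o,o,o,o,e,o,o,o,o,o,o],[e,o,o,o,o,o,o,e,e,o,o,o,o,o],[o,o,o,o,o,o,o,o,o,e,o,o,o,o],[o,o,o,o,o,o,o,o,o,e,e,o,o,o],[o,o,o,o,o,o,o,o,o,o,o,e,o,o],[o,o,o,o,o,o,o,o,o,o,o,o,e,o],[o,o,o,o,o,o,o,o,o,o,o,o,e,e]],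
   [[e,o,o,o,o,o,o,o,o,o,o,o,o,o],[e,e,o,o,o,o,o,o,o,o,o,o,o,o],[o,o,o,v,o,o,o,o,o,o,o,o,o,o],[o,o,w,o,o,o,o,o,o,o,o,o,o,o],[o,o,o,o,e,o,o,o,o,o,o,o,o,o],[o,o,o,o,o,o,v,o,o,o,o,o,o,o],[o,o,o,o,o,w,o,o,o,o,o,o,o,o],[o,o,o,o,o,o,o,o,w,o,o,o,o,o],[o,o,o,o,o,o,o,v,o,o,o,o,o,o],[o,o,o,o,o,o,o,o,o,o,v,o,o,o],[o,o,o,o,o,o,o,o,o,w,o,o,o,o],[o,o,o,o,o,o,o,o,o,o,o,e,o,o],[o,o,o,o,o,o,o,o,o,o,o,o,o,v],[o,o,o,o,o,o,o,o,o,o,o,o,w,o]],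
   [[e,o,e,o,o,w,o,o,o,v,o,o,e,o],[o,e,o,o,o,w,o,w,o,o,o,o,e,o],[o,o,e,o,o,o,o,e,o,o,o,o,o,o],[e,e,v,e,v,w,o,w,o,v,o,o,e,o],[o,o,w,o,e,o,o,o,o,e,o,o,o,o],[o,o,o,o,o,e,o,v,o,o,o,o,o,o],[o,v,v,o,o,v,e,e,o,w,o,e,v,o],[o,o,o,o,o,o,o,e,o,o,o,o,o,o],[w,o,w,e,o,v,w,v,e,e,v,o,w,e],[o,o,o,o,o,o,o,w,o,e,o,o,o,o],[w,w,w,o,e,v,o,v,o,v,e,o,w,o],[o,o,o,o,o,e,o,o,o,o,o,e,v,o],[o,o,o,o,o,o,o,e,o,o,o,o,e,o],[o,e,e,o,o,w,o,w,o,v,o,w,v,e]],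
   [[e,o,o,o,o,o,o,o,o,o,o,o,o,o],[o,e,o,o,w,o,o,o,o,o,o,o,o,o],[o,o,e,o,o,o,o,o,o,o,o,o,o,o],[o,o,o,e,o,o,o,o,o,o,o,o,o,o],[o,o,o,o,e,o,o,o,o,o,o,o,o,o],[o,o,w,o,o,e,o,o,o,o,o,o,o,o],[o,o,o,w,o,o,e,o,o,o,o,o,o,o],[o,o,o,o,o,o,o,e,o,o,o,o,o,o],[o,o,o,o,o,o,o,o,e,o,o,o,o,o],[o,o,v,o,o,o,o,o,o,e,o,o,o,o],[o,o,o,v,o,o,o,o,o,o,e,o,o,o],[w,o,o,o,v,o,o,o,o,o,o,e,o,o],[o,o,e,o,o,v,o,o,o,w,o,o,e,o],[o,o,o,e,o,o,v,o,o,o,w,o,o,e]],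
   [[e,o,o,o,o,o,o,o,o,o,o,o,o,o],[v,e,o,o,v,o,o,o,o,o,o,w,o,o],[o,o,e,o,o,e,o,o,o,e,o,o,e,o],[o,o,o,e,o,o,e,o,o,o,e,o,o,e],[w,o,o,o,w,o,o,o,o,o,o,w,o,o],[o,o,w,o,o,e,o,o,o,w,o,o,e,o],[o,o,o,w,o,o,e,o,o,o,w,o,o,e],[o,o,o,o,o,o,o,e,o,o,o,o,o,o],[o,o,o,o,o,o,o,o,e,o,o,o,o,o],[o,o,v,o,o,v,o,o,o,e,o,o,e,o],[o,o,o,v,o,o,v,o,o,o,e,o,o,e],[v,o,o,o,e,o,o,o,o,o,o,w,o,o],[o,o,e,o,o,v,o,o,o,w,o,o,e,o],[o,o,o,e,o,o,v,o,o,o,w,o,o,e]],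
   [[e,o,o,o,o,o,o,o,o,o,o,o,o,o],[o,e,o,o,o,o,o,w,o,o,o,o,o,o],[o,o,e,o,o,o,o,o,o,o,o,o,o,o],[o,o,w,e,o,o,o,o,o,o,o,o,o,o],[o,o,o,o,e,o,o,o,o,o,o,o,o,o],[o,o,o,o,o,e,o,o,o,o,o,o,o,o],[o,o,o,o,o,w,e,o,o,o,o,o,o,o],[o,o,o,o,o,o,o,e,o,o,o,o,o,o],[w,o,o,o,o,o,o,v,e,o,o,o,o,o],[o,o,o,o,o,o,o,o,o,e,o,o,o,o],[o,o,o,o,o,o,o,o,o,w,e,o,o,o],[o,o,o,o,o,o,o,o,o,o,o,e,o,o],[o,o,o,o,o,o,o,o,o,o,o,o,e,o],[o,o,o,o,o,o,o,o,o,o,o,o,w,e]]]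

/-- The words of the letters in the root elements. -/
def wds : List (List (Nat × K4)) :=
  [[(6,e)],
   [(6,e),(5,w),(6,e),(5,w),(6,e)],
   [(1,v),(9,v),(0,e),(6,e),(0,e),(9,v),(1,v)],
   [(3,v),(8,w),(3,v),(7,e),(3,v),(8,w),(3,v)],
   [(10,w),(9,v),(1,v),(7,e),(1,v),(9,v),(10,w)],
   [(0,v),(11,v),(0,e),(6,e),(0,e),(11,v),(0,v)]]

/-- The matrix of a letter. -/
def M (c : Nat) : Matrix ι ι K4 :=
  Matrix.of fun i j => ((tbl.getD c []).getD (idx i) []).getD (idx j) o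

/-- The axioms of the type `G₂` over the concrete field. -/
theorem ax : Ax chevG2 K4 := Cfsg.Agent.Lib.Lie.AxOf.ax_of_mem (by simp)

/-- The product of root elements along a word. -/
noncomputable def gW : List (Nat × K4) → GL ι K4
  | [] => 1
  | p :: l => xG ax p.1 p.2 * gW l

/-- The matrix product along a word. -/
def mW : List (Nat × K4) → Matrix ι ι K4
  | [] => 1
  | p :: l => chevG2.x K4 p.1 p.2 * mW l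

theorem gW_val (l : List (Nat × K4)) : (gW l : Matrix ι ι K4) = mW l := by
  induction l with
  | nil => rfl
  | cons p l ih =>
    rw [gW, mW, Units.val_mul, ih]
    rfl

theorem gW_mem (l : List (Nat × K4)) (hl : ∀ p ∈ l, p.1 < 12) : gW l ∈ chevG2.group K4 := by
  induction l with
  | nil => exact Subgroup.one_mem _
  | cons p l ih =>
    refine Subgroup.mul_mem _ ?_ (ih fun q hq => hl q (by simp [hq]))
    exact Cfsg.Agent.Lib.ChevX.Reach.xG_mem_group ax (hl p (by simp)) _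

theorem wds_lt : ∀ l ∈ wds, ∀ p ∈ l, p.1 < 12 := by decide

theorem word_val : ∀ c, c < 6 → mW (wds.getD c []) = M c := by decide +kernel

/-- A letter in the Chevalley group. -/
noncomputable def tau (c : Nat) : ↥(chevG2.group K4) :=
  if h : c < 6 then
    ⟨gW (wds.getD c []), gW_mem _ (wds_lt _ (by
      rw [List.getD_eq_getElem _ _ (by change c < 6; exact h)]
      exact List.getElem_mem _))⟩
  else 1

theorem tau_val {c : Nat} (h : c < 6) :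
    (((tau c : ↥(chevG2.group K4)) : GL ι K4) : Matrix ι ι K4) = M c := by
  rw [tau, dif_pos h]
  change (gW _ : Matrix ι ι K4) = _
  rw [gW_val, word_val c h]

/-- The product of matrices along a word. -/
def prodMat : List Nat → Matrix ι ι K4
  | [] => 1
  | z :: l => prodMat l * M z

theorem prodA_val (l : List Nat) (hl : ∀ z ∈ l, z < 6) :
    (((prodA tau l : ↥(chevG2.group K4)) : GL ι K4) : Matrix ι ι K4) = prodMat l := by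
  induction l with
  | nil => rfl
  | cons z l ih =>
    rw [prodA_cons, prodMat, ← ih (fun y hy => hl y (by simp [hy])), ← tau_val (hl z (by simp))]
    rfl

theorem relMat : ∀ l ∈ rels', prodMat l = 1 := by decide +kernel

theorem tau_rel : ∀ l ∈ rels', prodA tau l = 1 := by
  intro l hl
  apply Subtype.ext
  apply Units.ext
  rw [prodA_val l (hk l hl), relMat l hl]
  rfl

theorem exists_psi : ∃ ψ : PresentedGroup Rp →* ↥(chevG2.group K4),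
    ∀ c, c < Kp.k → ψ (Kp.E Rp c) = tau c := by
  refine exists_hom_of_letters hv (SubPres.hR 6 rels' hk) tau ?_ tau_rel
  intro c hc
  have hc' : c < 6 := hc
  apply eq_inv_of_mul_eq_one_left
  have := tau_rel [c, c] (hsq c hc')
  simpa [Kp, SubPres.K] using this

theorem hT : ∃ a b : PresentedGroup Rp, a * b ≠ b * a := by
  refine ⟨Kp.E Rp 0, Kp.E Rp 1, fun h => ?_⟩
  have h0 : Kp.E Rp 0 * Kp.E Rp 0 = 1 := mul_eq_one_iff_eq_inv.2 (Cols.E_inv hv 0 (by decide)).2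
  have h1 : Kp.E Rp 1 * Kp.E Rp 1 = 1 := mul_eq_one_iff_eq_inv.2 (Cols.E_inv hv 1 (by decide)).2
  refine word_ne_one ok [0, 1, 0, 1] (by decide) 1 (by decide) (by decide +kernel) ?_
  simp only [prodA_cons, prodA_nil, one_mul]
  have key : ∀ a b : PresentedGroup Rp, a * b = b * a → a * a = 1 → b * b = 1 →
      b * a * b * a = 1 := by
    intro a b hab ha hb
    rw [← hab, mul_assoc a b b, hb, mul_one, ha]
  exact key _ _ h h0 h1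

theorem card_T : Nat.card ↥(chevG2.group K4) = 251596800 := by
  have h := Cfsg.Agent.S1059.result (F := K4) (q := 4) K4.card_eq
  rw [h]
  norm_num

instance simple_H : IsSimpleGroup (PresentedGroup Rp) := D.SuzH.Main.simple_card.1

instance finite_H : Finite (PresentedGroup Rp) :=
  Nat.finite_of_card_ne_zero (by rw [D.SuzH.Main.simple_card.2]; norm_num)

theorem equiv_T : Nonempty (PresentedGroup Rp ≃* ↥(chevG2.group K4)) := by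
  obtain ⟨ψ, hψ⟩ := exists_psi
  have hker : Function.Injective ψ := by
    rcases (Subgroup.Normal.eq_bot_or_eq_top (inferInstance : ψ.ker.Normal)) with h | h
    · exact (MonoidHom.ker_eq_bot_iff ψ).1 h
    · exfalso
      have h2 : Kp.E Rp 0 ∈ ψ.ker := by rw [h]; trivial
      rw [MonoidHom.mem_ker, hψ 0 (by decide)] at h2
      have h3 := tau_val (c := 0) (by decide)
      rw [h2] at h3
      have h4 : M 0 = 1 := h3.symm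
      exact absurd h4 (by decide +kernel)
  have hfin : Finite ↥(chevG2.group K4) := Nat.finite_of_card_ne_zero (by rw [card_T]; norm_num)
  exact ⟨MulEquiv.ofBijective ψ ((Nat.bijective_iff_injective_and_card ψ).2
    ⟨hker, by rw [D.SuzH.Main.simple_card.2, card_T]⟩)⟩

end Cfsg.Agent.Lib.TC.D.SuzH.Tgt
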