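import Cfsg.Agent.Lib.TC.Enc

namespace Cfsg.Agent.Lib.TC.D.SuzH.OrbT

open Cfsg.Agent.Lib.TC.Enc

set_option maxRecDepth 100000

/-- The chunks of the orbit data. -/
noncomputable def tree : Tr Nat :=
  (Tr.node (Tr.node (Tr.node (Tr.leaf (nat_lit 0x3a13a18268ec4a8409a3c122762342c4d1e0893811288214e4489e07d3b0fa721f4f03c9d0793b0ea781b4e4369e0693a0d278194e8329d861330ba00268d02c98059340a262144ec269a0493209266114c4229a04132082660f4cc1c988392c062520c4b0169502d3007a560a4a014958252904a54084900e9101d2303242064880a900151b022340346406890091001212014000280000))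
 (Tr.leaf (nat_lit 0x68792d5135a9e0b5c516b77ad2ef5c24eb43b96a79ad2e84e5cf1db9e6c732e8ea5adcab43956871276e18e9c135b7d696fad2dd5a9b8b4371696dad2f55a9b2b5b61696c2d6d45129329d5e6969268cf8c99f223326465278ec90abf3232162642d8e958d8eb131d6063a60c68cd8d1a31663652c8c258984b94896360ac2c150a93312fd335f468bd8c97b322ed615da88cd8e1db322e5)))
 (Tr.node (Tr.leaf (nat_lit 0x5947a528e8ad1d2e2355a46a870196d18ac2312a45cb68a56514aca256b6f2b08856d0eaca1d5a432548596d08aca112b41cb4824b10315a025a3fa54818b0fd2d9f5593e2c0bf560f6ad9e9593d2b279568f0ac9dd4b604a275484e9119d25439a86cc94ce4a81c92238ca670544e0a52ea5037a446e94cdaa89b523364a46b548d4a89a552342a66748ccd2919524324a663484c51218a))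
 (Tr.leaf (nat_lit 0x8bce3079960f2cc0e597bc5af7895e712bde157cc22f5845eb02bd5f17abd2f5795eaecbd5cd73b2ae9645eef0b9d8571b0ae9605cac0a257e74adae95a5cab4b9d6151abc87559cea6a1da6))))
 (Tr.node (Tr.node (Tr.leaf (nat_lit 0x5330a4662950c0a917d512f2a45d548b8a996d522d29496920b28d1624b2ba925746cad25155492a23653928a48e1464b282964f5289ca59354c262384b92c948d92e4c24a304b93090a49214b23a944552c88a590d4c21296415047e898fa421ea283c90c76a10e9141cc863844c79220dd441aa863451066a10cd111e4883250c64a00c944182882f50c5ca20b54415a822b51052a20a1))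
 (Tr.leaf (nat_lit 0x43a54e9425ca84b9d0573a02e73d5ceb2b94c5729e2e7305c660a1cb67395ae12b5ce74b94a970952e5285c246a65fe5bc1ce11f4f23b35c6d449a487359b22eb4c5d7498ad9155aa2ab5c4d3b89479119b21ab642d6a85ad70a5aa14b44294abfc79078f20b35c116c81ad10350603204d66c7fad2ff5b1fab53f1687e270fb8edf71e3ea6c87ae5235b1eeb53dd7192ad6f65a5ecb53c9)))
 (Tr.node (Tr.leaf (nat_lit 0x625ca76ed98d70b0ae1315bc66b79916cba30d635aac0b558168b9b5d6368ac2b25ce7cb1ac160582c2af4c55d19aba6456ad6fc58d58b02b13255cc6aa5855499aa632544c2a74d14d19a9662522c4d058146b0a8562502d2d658d3eb027d686a2c09e58d3ab0a754b84cc09c56934ac2692b4cc58988ee3b1d4465c4aab495511fd2da51594a252938ad272e2496b86ab69156122a13fa))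
 (Tr.leaf (nat_lit 0x8bce3079960f2cc0e597bc5af7895e712bde157cc22f5845eb02bd5f17abd2f5795eaecbd5cd73b2ae9645eef0b9d8571b0ae9605cac0a257e74adae95a5cab4b9d6151abc87559cea6a1da6)))))

end Cfsg.Agent.Lib.TC.D.SuzH.OrbT
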