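import Cfsg.Agent.Lib.TC.D.SuzH.Tab
import Cfsg.Agent.Lib.TC.D.SuzH.OrbT

namespace Cfsg.Agent.Lib.TC.D.SuzH.Orb

open Cfsg.Agent.Lib.TC.Core Cfsg.Agent.Lib.TC.Enc Cfsg.Agent.Lib.TC.Pres Cfsg.Agent.Lib.TC.Perm Cfsg.Agent.Lib.TC.Main Cfsg.Agent.Lib.TC.Chain Cfsg.Agent.Lib.TC.SubPres Cfsg.Agent.Lib.TC.Iso

set_option maxRecDepth 100000

open Cfsg.Agent.Lib.TC.D.SuzH.Tab Cfsg.Agent.Lib.TC.D.SuzChain.S1_Tab

/-- The label of a point. -/
noncomputable def lab : Nat → Nat := cellF 6 63 19 524287 0 3 OrbT.tree.get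
/-- The parent of a point. -/
noncomputable def oP : Nat → Nat := cellF 6 63 19 524287 2 511 OrbT.tree.get
/-- The word of a point. -/
noncomputable def oW : Nat → Nat := cellF 6 63 19 524287 11 7 OrbT.tree.get
/-- The depth of a point. -/
noncomputable def oD : Nat → Nat := cellF 6 63 19 524287 14 31 OrbT.tree.get
/-- The representatives of labels. -/
def repr (l : Nat) : Nat := [0,1,38].getD l 0

theorem hlab : pt.orbRange subs' lab oP oW oD repr 0 416 = true := by decide +kernel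

end Cfsg.Agent.Lib.TC.D.SuzH.Orb
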