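import Cfsg.Agent.Lib.TC.D.SuzH.Tab
import Cfsg.Agent.Lib.TC.D.SuzChain.S1
import Cfsg.Agent.Lib.TC.D.SuzH.P0

namespace Cfsg.Agent.Lib.TC.D.SuzH.Ok

open Cfsg.Agent.Lib.TC.Core Cfsg.Agent.Lib.TC.Enc Cfsg.Agent.Lib.TC.Pres Cfsg.Agent.Lib.TC.Perm Cfsg.Agent.Lib.TC.Main Cfsg.Agent.Lib.TC.Chain Cfsg.Agent.Lib.TC.SubPres Cfsg.Agent.Lib.TC.Iso

set_option maxRecDepth 100000

open Cfsg.Agent.Lib.TC.D.SuzH.Tab Cfsg.Agent.Lib.TC.D.SuzChain.S1_Tab

theorem allP0 : pt.chkRange rels' 0 416 = true := Cfsg.Agent.Lib.TC.D.SuzH.P0.ok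

/-- The columns. -/
abbrev Kp : Cols (Fin 6) := K 6

/-- The relators. -/
abbrev Rp : Set (FreeGroup (Fin 6)) := R 6 rels'

theorem hgood : pt.Good rels' where
  hpos := by decide
  hinv := by decide +kernel
  hrels := by decide +kernel
  hchk := allP0

theorem hk : ∀ l ∈ rels', ∀ z ∈ l, z < 6 := by decide +kernel

theorem hsq : ∀ c, c < 6 → [c, c] ∈ rels' := by decide +kernel

theorem hv : Kp.Valid (R := Rp) := valid 6 rels' hsq

theorem hrelsp : ∀ l ∈ rels', ∃ L, FreeGroup.mk L ∈ Rp ∧ l = Kp.word L := SubPres.hrels 6 rels' hk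

theorem ok : Ok Kp Rp cert pt rels' subs' witT.get where
  hK := hv
  hCk := by decide
  hPk := by decide
  hPinv := fun _ => rfl
  hR := SubPres.hR 6 rels' hk
  hrels := hrelsp
  hG := hgood
  hsubk := by decide +kernel
  hsub0 := by decide +kernel
  h1 := by decide +kernel
  h2 := by decide +kernel
  hC := Cfsg.Agent.Lib.TC.D.SuzChain.S1.hchecked
  hcount := Cfsg.Agent.Lib.TC.D.SuzChain.S1.hcount

end Cfsg.Agent.Lib.TC.D.SuzH.Ok
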