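import Cfsg.Agent.Lib.TC.D.SuzH.X_Tab
import Cfsg.Agent.Lib.TC.D.SuzH.Ok
import Cfsg.Agent.Lib.TC.D.SuzH.X_C0
import Cfsg.Agent.Lib.TC.D.SuzH.X_P0

namespace Cfsg.Agent.Lib.TC.D.SuzH.X

open Cfsg.Agent.Lib.TC.Core Cfsg.Agent.Lib.TC.Enc Cfsg.Agent.Lib.TC.Pres Cfsg.Agent.Lib.TC.Perm Cfsg.Agent.Lib.TC.Main Cfsg.Agent.Lib.TC.Chain Cfsg.Agent.Lib.TC.SubPres Cfsg.Agent.Lib.TC.Iso

set_option maxRecDepth 100000

open Cfsg.Agent.Lib.TC.D.SuzH.X_Tab Cfsg.Agent.Lib.TC.D.SuzH.Ok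
open Cfsg.Agent.Lib.TC.D.SuzH.Tab (pt)
open Cfsg.Agent.Lib.TC.D.SuzChain.S1_Tab (rels')

theorem allC0 : cert.chkRange 0 40 = true := Cfsg.Agent.Lib.TC.D.SuzH.X_C0.ok
theorem allP0 : pt.chkRange [xwp] 0 416 = true := Cfsg.Agent.Lib.TC.D.SuzH.X_P0.ok

theorem hFinal : cert.chkFinal 0 40 = true := by decide +kernel

theorem h0 : cert.eLvl (cert.par (cert.find cert.MAX cert.D 0)) = cert.MAX := by decide +kernel

theorem hcount : cert.countRoots cert.N = 1 := by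
  rw [countRoots_eq_acc]
  decide +kernel

theorem hchecked : Checked cert where
  hN := by decide
  hC := allC0
  hF := hFinal
  h0 := h0

theorem hcl : Subgroup.normalClosure ({prodA (Kp.E Rp) xw} : Set (PresentedGroup Rp)) = ⊤ :=
  normalClosure_top_of_cols hv hrelsp xw (by decide +kernel) cert witT.get (by decide)
    (by decide +kernel) (by decide +kernel) hchecked hcount

theorem hxp : pt.chkRange [(List.replicate 13 xw).flatten] 0 pt.n = true := by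
  rw [hxwp]
  exact allP0

end Cfsg.Agent.Lib.TC.D.SuzH.X
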