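import Cfsg.Agent.Lib.TC.D.SuzH.Ok
import Cfsg.Agent.Lib.TC.D.SuzH.Bound
import Cfsg.Agent.Lib.TC.D.SuzH.Orb
import Cfsg.Agent.Lib.TC.D.SuzH.Lev
import Cfsg.Agent.Lib.TC.D.SuzH.X

namespace Cfsg.Agent.Lib.TC.D.SuzH.Main

open Cfsg.Agent.Lib.TC.Core Cfsg.Agent.Lib.TC.Enc Cfsg.Agent.Lib.TC.Pres Cfsg.Agent.Lib.TC.Perm Cfsg.Agent.Lib.TC.Main Cfsg.Agent.Lib.TC.Chain Cfsg.Agent.Lib.TC.SubPres Cfsg.Agent.Lib.TC.Iso

set_option maxRecDepth 100000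

open Cfsg.Agent.Lib.TC.D.SuzH.Tab Cfsg.Agent.Lib.TC.D.SuzH.Ok Cfsg.Agent.Lib.TC.D.SuzH.Orb Cfsg.Agent.Lib.TC.D.SuzH.Bound Cfsg.Agent.Lib.TC.Chain.PermLev

/-- The sizes of the orbits. -/
def size (l : Nat) : Nat := [1,315,100].getD l 0

theorem hsize : (List.range 3).all (fun l => Nat.beq (countAcc lab l 0 416 0) (size l)) = true := by
  decide +kernel

theorem hnum : ∀ S ∈ (Finset.range (2 + 1)).powerset, 0 ∈ S → (∑ ℓ ∈ S, size ℓ) ∣ pt.n →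
      (∑ ℓ ∈ S, size ℓ) = 1 ∨ (∑ ℓ ∈ S, size ℓ) = pt.n :=
  hnum_of_chk size 2 pt.n (by decide) (by decide) (by decide +kernel)

theorem simple_card : IsSimpleGroup (PresentedGroup Rp) ∧ Nat.card (PresentedGroup Rp) = 251596800 :=
  haveI := ok.npos
  isSimple_and_card ok 251596800 bound.1 bound.2 Cfsg.Agent.Lib.TC.D.SuzH.Lev.levels Cfsg.Agent.Lib.TC.D.SuzH.Lev.hlev (by decide +kernel) (by decide)
    lab oP oW oD repr hlab 3 (by decide +kernel) (by decide +kernel) size (hsize_of_chk hsize) hnum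
    13 (by norm_num) (by decide) (by decide) (by decide)
    Cfsg.Agent.Lib.TC.D.SuzH.X_Tab.xw (by decide +kernel) Cfsg.Agent.Lib.TC.D.SuzH.X.hxp 0 (by decide) (by decide +kernel) Cfsg.Agent.Lib.TC.D.SuzH.X.hcl

end Cfsg.Agent.Lib.TC.D.SuzH.Main
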