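import Cfsg.Agent.Lib.TC.D.SuzChain.S1_Tab
import Cfsg.Agent.Lib.TC.SubPres
import Cfsg.Agent.Lib.TC.D.SuzH.PT0

namespace Cfsg.Agent.Lib.TC.D.SuzH.Tab

open Cfsg.Agent.Lib.TC.Core Cfsg.Agent.Lib.TC.Enc Cfsg.Agent.Lib.TC.Pres Cfsg.Agent.Lib.TC.Perm Cfsg.Agent.Lib.TC.Main Cfsg.Agent.Lib.TC.Chain Cfsg.Agent.Lib.TC.SubPres Cfsg.Agent.Lib.TC.Iso

set_option maxRecDepth 100000

/-- The chunks of the table. -/
noncomputable def ptree : Tr Nat := Cfsg.Agent.Lib.TC.D.SuzH.PT0.tree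

/-- The table. -/
noncomputable def pt : PT :=
  mkPT 416 6 5 31 8 9 511 ptree.get (fun c => c)


end Cfsg.Agent.Lib.TC.D.SuzH.Tab
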